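import Cfsg.Agent.Design.Step
import Cfsg.Agent.Design.Enum
import Cfsg.Agent.Design.Data22

/-!
Every S(3,6,22) is labelled by the standard list: a point, a block avoiding it and a labelling
of that block determine the labelling uniquely.
-/

set_option autoImplicit false

namespace Cfsg.Agent.Design

open Cfsg.Agent.SteinerCount

/-- The `s`-th fixed-point-free involution of six letters. -/
def perfMatch (s : Fin 15) (i : Fin 6) : Fin 6 :=
  Fin.ofNat 6 ((Data.matchTable.getD s []).getD i 0)

/-- A letter outside the first pair of a matching. -/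
def perfAux (s : Fin 15) : Fin 6 := Fin.ofNat 6 (Data.auxTable.getD s 0)

/-- Label of a letter. -/
def lab6 (i : Fin 6) : Fin 22 := ⟨i, by omega⟩

/-- Label of a syntheme. -/
def lab15 (s : Fin 15) : Fin 22 := ⟨6 + s, by omega⟩

/-- Label of the extra point. -/
def labInf : Fin 22 := ⟨21, by omega⟩

theorem lab_cases (x : Fin 22) : (∃ i, x = lab6 i) ∨ (∃ s, x = lab15 s) ∨ x = labInf := by
  by_cases h : x.1 < 6
  · exact Or.inl ⟨⟨x.1, h⟩, rfl⟩
  · by_cases h' : x.1 < 21
    · exact Or.inr (Or.inl ⟨⟨x.1 - 6, by omega⟩, Fin.ext (by show x.1 = 6 + (x.1 - 6); omega)⟩)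
    · exact Or.inr (Or.inr (Fin.ext (by show x.1 = 21; omega)))

/-- The block of a duad. -/
def duadBlock (a b : Fin 6) : Finset (Fin 22) :=
  {labInf, lab6 a, lab6 b} ∪ (Finset.univ.filter fun s => perfMatch s a = b).image lab15

theorem perfMatch_facts : ∀ s : Fin 15, ∀ i : Fin 6,
    perfMatch s i ≠ i ∧ perfMatch s (perfMatch s i) = i := by decide +kernel

theorem perfAux_facts : ∀ s : Fin 15, perfAux s ≠ 0 ∧ perfAux s ≠ perfMatch s 0 := by
  decide +kernel

theorem perfMatch_rest : ∀ s : Fin 15, ∀ i j : Fin 6,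
    i ∉ ({0, perfMatch s 0, perfAux s, perfMatch s (perfAux s)} : Finset (Fin 6)) →
    j ∉ ({0, perfMatch s 0, perfAux s, perfMatch s (perfAux s)} : Finset (Fin 6)) → j ≠ i →
    j = perfMatch s i := by decide +kernel

theorem perfMatch_inj : ∀ s t : Fin 15, (∀ i, perfMatch s i = perfMatch t i) → s = t := by
  decide +kernel

theorem card_duadBlock : ∀ a b : Fin 6, a ≠ b → (duadBlock a b).card = 6 := by decide +kernel

/-- The sixteen blocks used for recognising the design. -/
theorem known22_cases : ∀ r ∈ Data.known22, r = 63 ∨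
    ∃ a : Fin 6, ∃ b : Fin 6, a ≠ b ∧ bits 22 r = duadBlock a b := by decide +kernel

theorem bits22_63 : bits 22 63 = Finset.univ.image lab6 := by decide +kernel

theorem known22_valid : rowsValid Data.known22 Data.rows22 = true := by decide +kernel

theorem parCands22_sub :
    (parCands 22 6 0 Data.rows22).all (fun m => memb m Data.list22) = true := by decide +kernel

theorem length_list22 : Data.list22.length = 77 := by decide +kernel

theorem memb_63 : memb 63 Data.list22 = true := by decide +kernel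

theorem memb_duad : ∀ a : Fin 6, ∀ b : Fin 6, a ≠ b →
    ∃ r ∈ Data.known22, bits 22 r = duadBlock a b ∧ memb r Data.list22 = true ∧ r < 2 ^ 22 := by
  decide +kernel

variable {α : Type*} [Fintype α] [DecidableEq α] {B : Set (Finset α)}

/-- A point and an ordered block avoiding it. -/
def Frame (B : Set (Finset α)) : Type _ :=
  Σ p : α, {f : Fin 6 ↪ α // Finset.univ.map f ∈ B ∧ p ∉ Finset.univ.map f}

section

variable (hB : Cfsg.IsSteinerSystem 3 6 B) (hv : Fintype.card α = 22) {p : α} {f : Fin 6 ↪ α}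
  (hH : Finset.univ.map f ∈ B) (hp : p ∉ Finset.univ.map f)

include hB hv hH hp

theorem exists_line {a b : Fin 6} (hab : a ≠ b) : ∃ l ∈ B, p ∈ l ∧ f a ∈ l ∧ f b ∈ l := by
  have hpa : p ≠ f a := fun h => hp (h ▸ Finset.mem_map_of_mem f (Finset.mem_univ a))
  have hpb : p ≠ f b := fun h => hp (h ▸ Finset.mem_map_of_mem f (Finset.mem_univ b))
  obtain ⟨l, ⟨hl, hs⟩, -⟩ := hB.2 {p, f a, f b}
    (Finset.card_eq_three.mpr ⟨_, _, _, hpa, hpb, f.injective.ne hab, rfl⟩)
  simp only [Finset.insert_subset_iff, Finset.singleton_subset_iff] at hs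
  exact ⟨l, hl, hs⟩

omit hB hv hH in
theorem three_card {x : α} (hx : x ≠ p) {a : Fin 6} (hxa : x ≠ f a) :
    ({p, x, f a} : Finset α).card = 3 :=
  Finset.card_eq_three.mpr ⟨_, _, _, hx.symm,
    fun h => hp (h ▸ Finset.mem_map_of_mem f (Finset.mem_univ a)), hxa, rfl⟩

omit hv hH in
theorem line_unique {l l' : Finset α} (hl : l ∈ B) (hl' : l' ∈ B) {x : α} {a : Fin 6}
    (hxp : x ≠ p) (hxa : x ≠ f a) (h1 : p ∈ l ∧ x ∈ l ∧ f a ∈ l)
    (h2 : p ∈ l' ∧ x ∈ l' ∧ f a ∈ l') : l = l' := by
  refine eq_of_two_le_inter hB hl hl' ?_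
  rw [← three_card hp hxp hxa]
  apply Finset.card_le_card
  intro y hy
  simp only [Finset.mem_insert, Finset.mem_singleton] at hy
  rw [Finset.mem_inter]
  rcases hy with rfl | rfl | rfl
  exacts [⟨h1.1, h2.1⟩, ⟨h1.2.1, h2.2.1⟩, ⟨h1.2.2, h2.2.2⟩]

omit hp in
theorem line_inter {l : Finset α} (hl : l ∈ B) (hpl : p ∈ l) (hp' : p ∉ Finset.univ.map f)
    {a b : Fin 6} (hab : a ≠ b) (ha : f a ∈ l) (hb : f b ∈ l) {c : Fin 6} (hc : f c ∈ l) :
    c = a ∨ c = b := by
  have hne : l ≠ Finset.univ.map f := fun h => hp' (h ▸ hpl)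
  by_contra hcon
  push Not at hcon
  have h3 : ({f a, f b, f c} : Finset α).card = 3 :=
    Finset.card_eq_three.mpr ⟨_, _, _, f.injective.ne hab, f.injective.ne hcon.1.symm,
      f.injective.ne hcon.2.symm, rfl⟩
  have hsub : ({f a, f b, f c} : Finset α) ⊆ l ∩ Finset.univ.map f := by
    intro y hy
    simp only [Finset.mem_insert, Finset.mem_singleton] at hy
    rw [Finset.mem_inter]
    rcases hy with rfl | rfl | rfl <;> simp [ha, hb, hc]
  have := Finset.card_le_card hsub
  rcases inter_3_6_22 hB hv hl hH hne with h | h <;> omega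

theorem exists_partner {x : α} (hxp : x ≠ p) (hx : x ∉ Finset.univ.map f) (i : Fin 6) :
    ∃ j, j ≠ i ∧ ∃ l ∈ B, p ∈ l ∧ f i ∈ l ∧ f j ∈ l ∧ x ∈ l := by
  have hxi : x ≠ f i := fun h => hx (h ▸ Finset.mem_map_of_mem f (Finset.mem_univ i))
  obtain ⟨l, ⟨hl, hs⟩, -⟩ := hB.2 {p, x, f i} (three_card hp hxp hxi)
  simp only [Finset.insert_subset_iff, Finset.singleton_subset_iff] at hs
  have hne : l ≠ Finset.univ.map f := fun h => hp (h ▸ hs.1)
  have hiH : f i ∈ l ∩ Finset.univ.map f := Finset.mem_inter.mpr ⟨hs.2.2, by simp⟩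
  have h2 : (l ∩ Finset.univ.map f).card = 2 := by
    rcases inter_3_6_22 hB hv hl hH hne with h | h
    · rw [Finset.card_eq_zero] at h
      rw [h] at hiH
      exact absurd hiH (Finset.notMem_empty _)
    · exact h
  obtain ⟨y, hy, hyne⟩ := Finset.exists_mem_ne (by omega : 1 < (l ∩ Finset.univ.map f).card) (f i)
  rw [Finset.mem_inter, Finset.mem_map] at hy
  obtain ⟨hyl, j, -, rfl⟩ := hy
  exact ⟨j, fun h => hyne (by rw [h]), l, hl, hs.1, hs.2.2, hyl, hs.2.1⟩

theorem syntheme_point (s : Fin 15) : ∃ x, x ≠ p ∧ x ∉ Finset.univ.map f ∧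
    (∀ i, ∀ l ∈ B, p ∈ l → f i ∈ l → f (perfMatch s i) ∈ l → x ∈ l) ∧
    ∀ y, y ≠ p → (∀ i, ∀ l ∈ B, p ∈ l → f i ∈ l → f (perfMatch s i) ∈ l → y ∈ l) → y = x := by
  let a : Fin 6 := 0
  let c : Fin 6 := perfAux s
  obtain ⟨hb, hbb⟩ := perfMatch_facts s a
  obtain ⟨hd, hdd⟩ := perfMatch_facts s c
  obtain ⟨hca, hcb⟩ := perfAux_facts s
  have hda : perfMatch s c ≠ a := fun h => hcb (hdd.symm.trans (congrArg (perfMatch s) h))
  have hdb : perfMatch s c ≠ perfMatch s a := fun h =>
    hca ((hdd.symm.trans (congrArg (perfMatch s) h)).trans hbb)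
  obtain ⟨l, hl, hpl, hla, hlb⟩ := exists_line hB hv hH hp hb.symm
  obtain ⟨m, hm, hpm, hmc, hmd⟩ := exists_line hB hv hH hp hd.symm
  have hlm : l ≠ m := by
    intro h
    rcases line_inter hB hv hH hl hpl hp hb.symm hla hlb (c := c) (h ▸ hmc) with e | e
    · exact hca e
    · exact hcb e
  have h2 : (l ∩ m).card = 2 := by
    rcases inter_3_6_22 hB hv hl hm hlm with h | h
    · rw [Finset.card_eq_zero] at h
      exact absurd (h ▸ Finset.mem_inter.mpr ⟨hpl, hpm⟩) (Finset.notMem_empty p)
    · exact h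
  obtain ⟨x, hx, hxp⟩ := Finset.exists_mem_ne (by omega : 1 < (l ∩ m).card) p
  rw [Finset.mem_inter] at hx
  have hxH : x ∉ Finset.univ.map f := by
    intro hh
    obtain ⟨i, -, rfl⟩ := Finset.mem_map.mp hh
    rcases line_inter hB hv hH hl hpl hp hb.symm hla hlb hx.1 with e | e <;>
      rcases line_inter hB hv hH hm hpm hp hd.symm hmc hmd hx.2 with e' | e'
    · exact hca (e'.symm.trans e)
    · exact hda (e'.symm.trans e)
    · exact hcb (e'.symm.trans e)
    · exact hdb (e'.symm.trans e)
  have hxi : ∀ i, x ≠ f i := fun i h => hxH (h ▸ Finset.mem_map_of_mem f (Finset.mem_univ i))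
  refine ⟨x, hxp, hxH, ?_, ?_⟩
  · intro i k hk hpk hki hkj
    obtain ⟨j, hji, k', hk', hpk', hk'i, hk'j, hk'x⟩ := exists_partner hB hv hH hp hxp hxH i
    have hj : j = perfMatch s i := by
      by_cases hi : i ∈ ({a, perfMatch s a, c, perfMatch s c} : Finset (Fin 6))
      · simp only [Finset.mem_insert, Finset.mem_singleton] at hi
        rcases hi with hi | hi | hi | hi
        · have : k' = l := line_unique hB hp hk' hl hxp (hxi i) ⟨hpk', hk'x, hk'i⟩
            ⟨hpl, hx.1, hi ▸ hla⟩
          rcases line_inter hB hv hH hl hpl hp hb.symm hla hlb (this ▸ hk'j) with e | e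
          · exact absurd (e.trans hi.symm) hji
          · rw [e, hi]
        · have : k' = l := line_unique hB hp hk' hl hxp (hxi i) ⟨hpk', hk'x, hk'i⟩
            ⟨hpl, hx.1, hi ▸ hlb⟩
          rcases line_inter hB hv hH hl hpl hp hb.symm hla hlb (this ▸ hk'j) with e | e
          · rw [e, hi, hbb]
          · exact absurd (e.trans hi.symm) hji
        · have : k' = m := line_unique hB hp hk' hm hxp (hxi i) ⟨hpk', hk'x, hk'i⟩
            ⟨hpm, hx.2, hi ▸ hmc⟩
          rcases line_inter hB hv hH hm hpm hp hd.symm hmc hmd (this ▸ hk'j) with e | e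
          · exact absurd (e.trans hi.symm) hji
          · rw [e, hi]
        · have : k' = m := line_unique hB hp hk' hm hxp (hxi i) ⟨hpk', hk'x, hk'i⟩
            ⟨hpm, hx.2, hi ▸ hmd⟩
          rcases line_inter hB hv hH hm hpm hp hd.symm hmc hmd (this ▸ hk'j) with e | e
          · rw [e, hi, hdd]
          · exact absurd (e.trans hi.symm) hji
      · refine perfMatch_rest s i j hi ?_ hji
        intro hjm
        simp only [Finset.mem_insert, Finset.mem_singleton] at hjm hi
        push Not at hi
        rcases hjm with e | e | e | e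
        · have : k' = l := line_unique hB hp hk' hl hxp (hxi j) ⟨hpk', hk'x, hk'j⟩
            ⟨hpl, hx.1, e ▸ hla⟩
          rcases line_inter hB hv hH hl hpl hp hb.symm hla hlb (this ▸ hk'i) with e' | e'
          exacts [hi.1 e', hi.2.1 e']
        · have : k' = l := line_unique hB hp hk' hl hxp (hxi j) ⟨hpk', hk'x, hk'j⟩
            ⟨hpl, hx.1, e ▸ hlb⟩
          rcases line_inter hB hv hH hl hpl hp hb.symm hla hlb (this ▸ hk'i) with e' | e'
          exacts [hi.1 e', hi.2.1 e']
        · have : k' = m := line_unique hB hp hk' hm hxp (hxi j) ⟨hpk', hk'x, hk'j⟩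
            ⟨hpm, hx.2, e ▸ hmc⟩
          rcases line_inter hB hv hH hm hpm hp hd.symm hmc hmd (this ▸ hk'i) with e' | e'
          exacts [hi.2.2.1 e', hi.2.2.2 e']
        · have : k' = m := line_unique hB hp hk' hm hxp (hxi j) ⟨hpk', hk'x, hk'j⟩
            ⟨hpm, hx.2, e ▸ hmd⟩
          rcases line_inter hB hv hH hm hpm hp hd.symm hmc hmd (this ▸ hk'i) with e' | e'
          exacts [hi.2.2.1 e', hi.2.2.2 e']
    subst hj
    have hpi : p ≠ f i := fun h => hp (h ▸ Finset.mem_map_of_mem f (Finset.mem_univ i))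
    have hpj : p ≠ f (perfMatch s i) :=
      fun h => hp (h ▸ Finset.mem_map_of_mem f (Finset.mem_univ _))
    have : k = k' := by
      refine eq_of_two_le_inter hB hk hk' ?_
      rw [← Finset.card_eq_three.mpr ⟨_, _, _, hpi, hpj, f.injective.ne hji.symm, rfl⟩]
      apply Finset.card_le_card
      intro y hy
      simp only [Finset.mem_insert, Finset.mem_singleton] at hy
      rw [Finset.mem_inter]
      rcases hy with rfl | rfl | rfl
      exacts [⟨hpk, hpk'⟩, ⟨hki, hk'i⟩, ⟨hkj, hk'j⟩]
    exact this ▸ hk'x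
  · intro y hyp hy
    have hyl : y ∈ l := hy a l hl hpl hla hlb
    have hym : y ∈ m := hy c m hm hpm hmc hmd
    by_contra hne
    have : ({p, x, y} : Finset α) ⊆ l ∩ m := by
      intro z hz
      simp only [Finset.mem_insert, Finset.mem_singleton] at hz
      rw [Finset.mem_inter]
      rcases hz with rfl | rfl | rfl
      exacts [⟨hpl, hpm⟩, hx, ⟨hyl, hym⟩]
    have := Finset.card_le_card this
    rw [Finset.card_eq_three.mpr ⟨_, _, _, hxp.symm, hyp.symm, Ne.symm hne, rfl⟩, h2] at this
    omega

theorem duad_image {e : Fin 22 → α} (hinj : Function.Injective e) (hinf : e labInf = p)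
    (h6 : ∀ i, e (lab6 i) = f i)
    (h15 : ∀ s i, ∀ l ∈ B, p ∈ l → f i ∈ l → f (perfMatch s i) ∈ l → e (lab15 s) ∈ l)
    {a b : Fin 6} (hab : a ≠ b) :
    (duadBlock a b).image e ∈ B := by
  obtain ⟨l, hl, hpl, hla, hlb⟩ := exists_line hB hv hH hp hab
  have hsub : (duadBlock a b).image e ⊆ l := by
    intro y hy
    simp only [duadBlock, Finset.mem_image, Finset.mem_union, Finset.mem_insert,
      Finset.mem_singleton, Finset.mem_filter, Finset.mem_univ, true_and] at hy
    obtain ⟨z, (rfl | rfl | rfl) | ⟨s, hs, rfl⟩, rfl⟩ := hy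
    · rwa [hinf]
    · rwa [h6]
    · rwa [h6]
    · exact h15 s a l hl hpl hla (by rwa [hs])
  rw [Finset.eq_of_subset_of_card_le hsub (by
    rw [hB.1 l hl, Finset.card_image_of_injective _ hinj, card_duadBlock a b hab])]
  exact hl

theorem exists_frame_iso :
    ∃ e : Fin 22 ≃ α, (e labInf = p ∧ ∀ i, e (lab6 i) = f i) ∧ IsIso Data.list22 B e := by
  choose pt hpt1 hpt2 hpt3 hpt4 using fun s => syntheme_point hB hv hH hp s
  let g : Fin 22 → α := fun x =>
    if h : x.1 < 6 then f ⟨x.1, h⟩ else if h' : x.1 < 21 then pt ⟨x.1 - 6, by omega⟩ else p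
  have hg6 : ∀ i, g (lab6 i) = f i := fun i => dif_pos i.2
  have hg15 : ∀ s, g (lab15 s) = pt s := by
    intro s
    have h1 : ¬ ((lab15 s : Fin 22) : ℕ) < 6 := by show ¬ 6 + s.1 < 6; omega
    have h2 : ((lab15 s : Fin 22) : ℕ) < 21 := by show 6 + s.1 < 21; omega
    show (if h : _ then _ else _) = _
    rw [dif_neg h1, dif_pos h2]
    congr 1
    exact Fin.ext (by show 6 + s.1 - 6 = s.1; omega)
  have hginf : g labInf = p := rfl
  have hmatch : ∀ s i, ∀ l ∈ B, p ∈ l → f i ∈ l → f (perfMatch s i) ∈ l → g (lab15 s) ∈ l := by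
    intro s i l hl h1 h2 h3; rw [hg15]; exact hpt3 s i l hl h1 h2 h3
  have hptinj : Function.Injective pt := by
    intro s t hst
    apply perfMatch_inj
    intro i
    obtain ⟨l, hl, hpl, hli, hlj⟩ := exists_line hB hv hH hp (perfMatch_facts s i).1.symm
    obtain ⟨m, hm, hpm, hmi, hmj⟩ := exists_line hB hv hH hp (perfMatch_facts t i).1.symm
    have hxl := hpt3 s i l hl hpl hli hlj
    have hxm : pt s ∈ m := hst ▸ hpt3 t i m hm hpm hmi hmj
    have : l = m := line_unique hB hp hl hm (hpt1 s)
      (fun h => hpt2 s (h ▸ Finset.mem_map_of_mem f (Finset.mem_univ i)))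
      ⟨hpl, hxl, hli⟩ ⟨hpm, hxm, hmi⟩
    rcases line_inter hB hv hH hl hpl hp (perfMatch_facts s i).1.symm hli hlj (this ▸ hmj) with e | e
    · exact absurd e (perfMatch_facts t i).1
    · exact e.symm
  have hinj : Function.Injective g := by
    intro x y hxy
    rcases lab_cases x with ⟨i, rfl⟩ | ⟨s, rfl⟩ | rfl <;>
      rcases lab_cases y with ⟨j, rfl⟩ | ⟨t, rfl⟩ | rfl <;>
      simp only [hg6, hg15, hginf] at hxy
    · rw [f.injective hxy]
    · exact absurd (hxy ▸ Finset.mem_map_of_mem f (Finset.mem_univ i)) (hpt2 t)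
    · exact absurd (hxy ▸ Finset.mem_map_of_mem f (Finset.mem_univ i)) hp
    · exact absurd (hxy ▸ Finset.mem_map_of_mem f (Finset.mem_univ j)) (hpt2 s)
    · rw [hptinj hxy]
    · exact absurd hxy (hpt1 s)
    · exact absurd (hxy ▸ Finset.mem_map_of_mem f (Finset.mem_univ j)) hp
    · exact absurd hxy.symm (hpt1 t)
    · rfl
  have hbij : Function.Bijective g :=
    (Fintype.bijective_iff_injective_and_card g).mpr ⟨hinj, by simp [hv]⟩
  refine ⟨Equiv.ofBijective g hbij, ⟨hginf, hg6⟩, isIso_of_subset (fun b hb => ?_) ?_⟩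
  · have hmem : mask (b.map (Equiv.ofBijective g hbij).symm.toEmbedding) ∈
        parCands 22 6 0 Data.rows22 := by
      refine mem_parCands (by norm_num) known22_valid _ (by rw [Finset.card_map, hB.1 b hb]) ?_
      intro r hr
      have himg : (bits 22 r).image g ∈ B := by
        rcases known22_cases r hr with rfl | ⟨a, c, hac, h⟩
        · rw [bits22_63, Finset.image_image]
          convert! hH using 1
          rw [Finset.map_eq_image]
          exact Finset.image_congr fun i _ => hg6 i
        · rw [h]; exact duad_image hB hv hH hp hinj hginf hg6 hmatch hac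
      have hcard : (b.map (Equiv.ofBijective g hbij).symm.toEmbedding ∩ bits 22 r).card =
          (b ∩ (bits 22 r).image g).card := by
        rw [← Finset.card_image_of_injective _ hinj]
        congr 1
        ext y
        obtain ⟨z, rfl⟩ := hbij.2 y
        simp only [Finset.mem_image, Finset.mem_inter, Finset.mem_map_equiv, Equiv.symm_symm,
          Equiv.ofBijective_apply]
        constructor
        · rintro ⟨w, ⟨h1, h2⟩, hw⟩
          exact ⟨hw ▸ h1, w, h2, hw⟩
        · rintro ⟨h1, w, h2, hw⟩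
          exact ⟨w, ⟨hw.symm ▸ h1, h2⟩, hw⟩
      rw [hcard]
      by_cases hbe : b = (bits 22 r).image g
      · rw [← hbe, Finset.inter_self, hB.1 b hb]
      · rcases inter_3_6_22 hB hv hb himg hbe with h | h <;> rw [h]
    exact memb_iff.mp (List.all_eq_true.mp parCands22_sub _ hmem)
  · rw [length_list22, card_blocks (N := 77) hB hv (by decide) (by decide)]

omit hH hp in
theorem frame_iso_unique {e e' : Fin 22 ≃ α} (he : IsIso Data.list22 B e)
    (he' : IsIso Data.list22 B e') (hinf : e labInf = e' labInf)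
    (h6 : ∀ i, e (lab6 i) = e' (lab6 i)) : e = e' := by
  have hH : (Finset.univ.map ⟨fun i => e (lab6 i), fun i j h =>
      Fin.ext (congrArg (fun x : Fin 22 => x.1) (e.injective h) : (lab6 i).1 = (lab6 j).1)⟩) ∈ B := by
    have := (he (bits 22 63)).mpr (by rw [mask_bits (by norm_num)]; exact memb_iff.mp memb_63)
    rw [bits22_63] at this
    convert! this using 1
  have hp : e labInf ∉ Finset.univ.map (⟨fun i => e (lab6 i), fun i j h =>
      Fin.ext (congrArg (fun x : Fin 22 => x.1) (e.injective h) : (lab6 i).1 = (lab6 j).1)⟩ :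
        Fin 6 ↪ α) := by
    simp only [Finset.mem_map, Finset.mem_univ, true_and, not_exists]
    intro i h
    have : i.1 = 21 := congrArg Fin.val (e.injective h)
    omega
  ext x
  rcases lab_cases x with ⟨i, rfl⟩ | ⟨s, rfl⟩ | rfl
  · exact h6 i
  · obtain ⟨z, hz1, -, -, hz4⟩ := syntheme_point hB hv hH hp s
    have key : ∀ d : Fin 22 ≃ α, IsIso Data.list22 B d → d labInf = e labInf →
        (∀ i, d (lab6 i) = e (lab6 i)) → d (lab15 s) = z := by
      intro d hd hd1 hd6
      apply hz4
      · rw [← hd1, d.injective.ne_iff]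
        intro h
        have : 6 + s.1 = 21 := congrArg Fin.val h
        omega
      · intro i l hl hpl hli hlj
        have hne := (perfMatch_facts s i).1
        obtain ⟨r, -, hr, hr2, hrlt⟩ := memb_duad i (perfMatch s i) hne.symm
        have hblk : (duadBlock i (perfMatch s i)).map d.toEmbedding ∈ B := by
          rw [hd, ← hr, mask_bits hrlt]; exact memb_iff.mp hr2
        have hin : ∀ x ∈ duadBlock i (perfMatch s i), d x ∈
            (duadBlock i (perfMatch s i)).map d.toEmbedding := fun x hx => by simp [hx]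
        have h1 : d labInf ∈ (duadBlock i (perfMatch s i)).map d.toEmbedding :=
          hin _ (by simp [duadBlock])
        have h2 : d (lab6 i) ∈ (duadBlock i (perfMatch s i)).map d.toEmbedding :=
          hin _ (by simp [duadBlock])
        have h3 : d (lab6 (perfMatch s i)) ∈ (duadBlock i (perfMatch s i)).map d.toEmbedding :=
          hin _ (by simp [duadBlock])
        have h4 : d (lab15 s) ∈ (duadBlock i (perfMatch s i)).map d.toEmbedding :=
          hin _ (Finset.mem_union_right _ (Finset.mem_image_of_mem _ (by simp)))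
        rw [hd1] at h1
        rw [hd6] at h2 h3
        have heq : l = (duadBlock i (perfMatch s i)).map d.toEmbedding := by
          refine eq_of_two_le_inter hB hl hblk ?_
          have hne' : e (lab6 i) ≠ e (lab6 (perfMatch s i)) := fun h =>
            hne (Fin.ext (congrArg (fun x : Fin 22 => x.1) (e.injective h)) : i = perfMatch s i).symm
          have hn1 : e labInf ≠ e (lab6 i) := fun h => by
            have : 21 = i.1 := congrArg Fin.val (e.injective h)
            omega
          have hn2 : e labInf ≠ e (lab6 (perfMatch s i)) := fun h => by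
            have : 21 = (perfMatch s i).1 := congrArg Fin.val (e.injective h)
            omega
          rw [← Finset.card_eq_three.mpr ⟨_, _, _, hn1, hn2, hne', rfl⟩]
          apply Finset.card_le_card
          intro y hy
          simp only [Finset.mem_insert, Finset.mem_singleton] at hy
          rw [Finset.mem_inter]
          rcases hy with rfl | rfl | rfl
          exacts [⟨hpl, h1⟩, ⟨hli, h2⟩, ⟨hlj, h3⟩]
        exact heq ▸ h4
    rw [key e he rfl (fun _ => rfl), key e' he' hinf.symm (fun i => (h6 i).symm)]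
  · exact hinf

end

/-- The number of labellings of an S(3,6,22). -/
theorem card_isIso22 (hB : Cfsg.IsSteinerSystem 3 6 B) (hv : Fintype.card α = 22) :
    Nat.card {e : Fin 22 ≃ α // IsIso Data.list22 B e} = 887040 := by
  classical
  have h63 : ∀ e : {e : Fin 22 ≃ α // IsIso Data.list22 B e},
      (Finset.univ.image fun i => e.1 (lab6 i)) ∈ B := by
    intro e
    have := (e.2 (bits 22 63)).mpr (by rw [mask_bits (by norm_num)]; exact memb_iff.mp memb_63)
    rw [bits22_63] at this
    convert! this using 1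
    rw [Finset.map_eq_image, Finset.image_image]
    rfl
  let emb : (e : Fin 22 ≃ α) → Fin 6 ↪ α := fun e =>
    ⟨fun i => e (lab6 i), fun i j h =>
      Fin.ext (congrArg (fun x : Fin 22 => x.1) (e.injective h) : (lab6 i).1 = (lab6 j).1)⟩
  let Φ : {e : Fin 22 ≃ α // IsIso Data.list22 B e} → Frame B := fun e =>
    ⟨e.1 labInf, emb e.1, by rw [Finset.map_eq_image]; exact h63 e, by
      simp only [Finset.mem_map, Finset.mem_univ, true_and, not_exists]
      intro i h
      have : i.1 = 21 := congrArg Fin.val (e.1.injective h)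
      omega⟩
  have hΦ : Function.Bijective Φ := by
    constructor
    · intro e e' h
      apply Subtype.ext
      have h1 : e.1 labInf = e'.1 labInf := congrArg Sigma.fst h
      have h2 : ∀ i, e.1 (lab6 i) = e'.1 (lab6 i) := fun i =>
        congrArg (fun t : Frame B => t.2.1 i) h
      exact frame_iso_unique hB hv e.2 e'.2 h1 h2
    · rintro ⟨p, f, hH, hp⟩
      obtain ⟨e, ⟨he1, he2⟩, he⟩ := exists_frame_iso hB hv hH hp
      refine ⟨⟨e, he⟩, ?_⟩
      have hf : emb e = f := DFunLike.ext _ _ he2
      apply Sigma.ext he1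
      exact (Subtype.heq_iff_coe_eq (fun x => by rw [show (Φ ⟨e, he⟩).1 = p from he1])).mpr hf
  rw [Nat.card_eq_of_bijective Φ hΦ, Frame, Nat.card_sigma]
  have hN := card_blocks (N := 77) hB hv (by decide) (by decide)
  have hfib : ∀ p : α, Nat.card {f : Fin 6 ↪ α // Finset.univ.map f ∈ B ∧ p ∉ Finset.univ.map f} =
      56 * 720 := by
    intro p
    have hp21 : ((blocks B).filter fun H => p ∈ H).card = 21 := by
      have := card_through (N := 21) hB hv {p} (Finset.card_singleton p) (by norm_num) (by decide)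
        (by decide)
      simpa [through] using this
    have h56 : ((blocks B).filter fun H => p ∉ H).card = 56 := by
      have h1 := Finset.card_filter_add_card_filter_not (s := blocks B) (fun H => p ∈ H)
      rw [hp21, ← ncard_eq, hN] at h1
      omega
    rw [Nat.card_eq_fintype_card, Fintype.card_subtype,
      Finset.card_eq_sum_card_fiberwise (f := fun f : Fin 6 ↪ α => Finset.univ.map f)
        (t := (blocks B).filter fun H => p ∉ H)
        (fun f hf => by
          simp only [Finset.coe_filter, Finset.mem_univ, true_and, Set.mem_ofPred_eq] at hf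
          simp only [Finset.coe_filter, Set.mem_ofPred_eq, mem_blocks]
          exact hf)]
    rw [Finset.sum_congr rfl (g := fun _ => 720), Finset.sum_const, h56, smul_eq_mul]
    intro H hH
    rw [Finset.mem_filter, mem_blocks] at hH
    have hHc := hB.1 H hH.1
    rw [Finset.filter_filter, ← Fintype.card_subtype]
    have e : {f : Fin 6 ↪ α // (Finset.univ.map f ∈ B ∧ p ∉ Finset.univ.map f) ∧
        Finset.univ.map f = H} ≃ (Fin 6 ↪ H) :=
      { toFun := fun f => ⟨fun i => ⟨f.1 i,
            (Finset.ext_iff.mp f.2.2 _).mp (Finset.mem_map_of_mem _ (Finset.mem_univ i))⟩,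
          fun i j h => f.1.injective (congrArg Subtype.val h)⟩
        invFun := fun g => ⟨g.trans (Function.Embedding.subtype _), by
          have : Finset.univ.map (g.trans (Function.Embedding.subtype _)) = H := by
            apply Finset.eq_of_subset_of_card_le
            · intro y hy
              obtain ⟨i, -, rfl⟩ := Finset.mem_map.mp hy
              exact (g i).2
            · rw [Finset.card_map, Finset.card_univ, Fintype.card_fin, hHc]
          exact ⟨⟨this.symm ▸ hH.1, this.symm ▸ hH.2⟩, this⟩⟩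
        left_inv := fun f => Subtype.ext (DFunLike.ext _ _ fun i => rfl)
        right_inv := fun g => DFunLike.ext _ _ fun i => rfl }
    rw [Fintype.card_congr e, Fintype.card_embedding_eq, Fintype.card_coe, hHc, Fintype.card_fin]
    rfl
  rw [Finset.sum_congr rfl fun p _ => hfib p, Finset.sum_const, Finset.card_univ, hv, smul_eq_mul]

/-- The three points used for transitivity. -/
def tuple22 : Fin 3 → Fin 22 := ![lab6 0, lab6 1, labInf]

/-- Any three points can be given the labels of the chosen triple. -/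
theorem realise22 (hB : Cfsg.IsSteinerSystem 3 6 B) (hv : Fintype.card α = 22) (y : Fin 3 ↪ α) :
    ∃ e : Fin 22 ≃ α, IsIso Data.list22 B e ∧ ∀ i, e (tuple22 i) = y i := by
  classical
  have h01 : y 0 ≠ y 1 := y.injective.ne (by decide)
  have h02 : y 0 ≠ y 2 := y.injective.ne (by decide)
  have h12 : y 1 ≠ y 2 := y.injective.ne (by decide)
  obtain ⟨H₀, ⟨hH₀, hs₀⟩, hu₀⟩ := hB.2 {y 0, y 1, y 2}
    (Finset.card_eq_three.mpr ⟨_, _, _, h01, h02, h12, rfl⟩)
  obtain ⟨r, hr⟩ : ∃ r, r ∉ H₀ := by
    by_contra hall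
    push Not at hall
    have h1 := Finset.card_le_card (fun t (_ : t ∈ (Finset.univ : Finset α)) => hall t)
    rw [Finset.card_univ, hv, hB.1 _ hH₀] at h1
    omega
  simp only [Finset.insert_subset_iff, Finset.singleton_subset_iff] at hs₀
  obtain ⟨H, ⟨hH, hs⟩, -⟩ := hB.2 {y 0, y 1, r} (Finset.card_eq_three.mpr
    ⟨_, _, _, h01, fun h => hr (by rw [← h]; exact hs₀.1),
      fun h => hr (by rw [← h]; exact hs₀.2.1), rfl⟩)
  simp only [Finset.insert_subset_iff, Finset.singleton_subset_iff] at hs
  have hpH : y 2 ∉ H := by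
    intro h
    apply hr
    rw [← hu₀ H ⟨hH, by simp [Finset.insert_subset_iff, hs.1, hs.2.1, h]⟩]
    exact hs.2.2
  obtain ⟨rest, hrest⟩ : ∃ rest : Finset α, rest = (H.erase (y 0)).erase (y 1) := ⟨_, rfl⟩
  have hcard : rest.card = 4 := by
    rw [hrest, Finset.card_erase_of_mem (Finset.mem_erase.mpr ⟨h01.symm, hs.2.1⟩),
      Finset.card_erase_of_mem hs.1, hB.1 _ hH]
  let l : List α := y 0 :: y 1 :: rest.toList
  have hl : l.length = 6 := by simp [l, hcard]
  have hnd : l.Nodup := by
    simp [l, hrest, Finset.nodup_toList, h01]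
  let f : Fin 6 ↪ α := ⟨fun i => l.get (i.cast hl.symm), fun i j h => by
    simpa using List.nodup_iff_injective_get.mp hnd h⟩
  have hf : Finset.univ.map f = H := by
    apply Finset.eq_of_subset_of_card_le
    · intro z hz
      obtain ⟨i, -, rfl⟩ := Finset.mem_map.mp hz
      have hmem : f i ∈ l := List.get_mem l _
      simp only [l, List.mem_cons, Finset.mem_toList, hrest, Finset.mem_erase] at hmem
      rcases hmem with h | h | h
      · rw [h]; exact hs.1
      · rw [h]; exact hs.2.1
      · exact h.2.2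
    · rw [Finset.card_map, Finset.card_univ, Fintype.card_fin, hB.1 _ hH]
  obtain ⟨e, ⟨he1, he2⟩, he⟩ := exists_frame_iso hB hv (p := y 2) (f := f) (hf.symm ▸ hH)
    (hf.symm ▸ hpH)
  refine ⟨e, he, fun i => ?_⟩
  fin_cases i
  · show e (lab6 0) = _; rw [he2]; rfl
  · show e (lab6 1) = _; rw [he2]; rfl
  · exact he1

end Cfsg.Agent.Design
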