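import Cfsg.Agent.Design.Step
import Cfsg.Agent.Design.Enum
import Cfsg.Agent.Design.Data22

/-!
Kernel computations for the S(4,7,23) system.
-/

set_option autoImplicit false

namespace Cfsg.Agent.Design

theorem bound_list22 : Data.list22.all (fun m => decide (m < 2 ^ 22)) = true := by decide +kernel

theorem bound_A : Data.cls23A.all (fun m => decide (m < 2 ^ 22)) = true := by decide +kernel

/-- The relabelling exchanging the two classes of heptads. -/
def swap23 : Equiv.Perm (Fin 22) :=
  swaps [(4, 5), (7, 8), (10, 11), (13, 14), (15, 18), (16, 19), (17, 20)]

theorem swap23_list22 : mapsInto swap23 Data.list22 Data.list22 = true := by decide +kernel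

theorem swap23_A : mapsInto swap23 Data.cls23A Data.cls23B = true := by decide +kernel

theorem one_list22 : mapsInto (1 : Equiv.Perm (Fin 22)) Data.list22 Data.list22 = true :=
  mapsInto_one fun m hm => of_decide_eq_true (List.all_eq_true.mp bound_list22 m hm)

theorem one_A : mapsInto (1 : Equiv.Perm (Fin 22)) Data.cls23A Data.cls23A = true :=
  mapsInto_one fun m hm => of_decide_eq_true (List.all_eq_true.mp bound_A m hm)

theorem nodup_list22 : Data.list22.Nodup := nodup_of_incr (by decide +kernel)

theorem nodup_A : Data.cls23A.Nodup := nodup_of_incr (by decide +kernel)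

theorem length_A : Data.cls23A.length = 176 ∧ Data.cls23B.length = 176 := by decide +kernel

theorem first_A : memb (Data.cls23A.headI) Data.cls23A = true ∧
    memb (Data.cls23A.headI) Data.cls23B = false ∧ memb (Data.cls23B.headI) Data.cls23B = true ∧
    memb (Data.cls23B.headI) Data.cls23A = false := by decide +kernel

theorem A_B_even :
    Data.cls23A.all (fun a => Data.cls23B.all fun b => Nat.beq (par (a &&& b)) 0) = true := by
  decide +kernel

theorem valid23 : rowsValid Data.list22 Data.rows23 = true := by decide +kernel

theorem parCands23_sub : (parCands 22 7 1 Data.rows23).all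
    (fun m => memb m Data.cls23A || memb m Data.cls23B) = true := by decide +kernel

end Cfsg.Agent.Design
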