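import Cfsg.Agent.Design.Step
import Cfsg.Agent.Design.Enum
import Cfsg.Agent.Design.Data22
import Cfsg.Agent.Design.Check23

/-!
Kernel computations for the S(5,8,24) system.
-/

set_option autoImplicit false

namespace Cfsg.Agent.Design

/-- The two classes of heptads. -/
def classes23 : Classes 22 Data.list22 where
  num := 2
  cls := ![Data.cls23A, Data.cls23B]
  zero := 0
  shift := ![1, swap23]
  bound := fun m hm => of_decide_eq_true (List.all_eq_true.mp bound_list22 m hm)
  bound' := fun m hm => of_decide_eq_true (List.all_eq_true.mp bound_A m hm)
  nodupL := nodup_list22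
  nodup := nodup_A
  shiftL := fun j => by fin_cases j <;> [exact one_list22; exact swap23_list22]
  shiftC := fun j => by fin_cases j <;> [exact one_A; exact swap23_A]
  length_eq := fun j => by fin_cases j <;> [rfl; exact length_A.2.trans length_A.1.symm]
  distinct := fun j k hjk => by
    obtain ⟨h1, h2, h3, h4⟩ := first_A
    fin_cases j <;> fin_cases k
    · exact absurd rfl hjk
    · exact ⟨_, memb_iff.mp h1, fun h => by
        have h' := memb_iff.mpr h
        rw [show (![Data.cls23A, Data.cls23B] : Fin 2 → List ℕ) ⟨1, by decide⟩ = Data.cls23B from rfl,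
          h2] at h'
        exact Bool.noConfusion h'⟩
    · exact ⟨_, memb_iff.mp h3, fun h => by
        have h' := memb_iff.mpr h
        rw [show (![Data.cls23A, Data.cls23B] : Fin 2 → List ℕ) ⟨0, by decide⟩ = Data.cls23A from rfl,
          h4] at h'
        exact Bool.noConfusion h'⟩
    · exact absurd rfl hjk

/-- The standard S(4,7,23). -/
def list23 : List ℕ := classes23.next

theorem bound_list23 : list23.all (fun m => decide (m < 2 ^ 23)) = true := by decide +kernel

theorem nodup_list23 : list23.Nodup := by
  have h1 : incr (Data.list22.map fun m => m + 2 ^ 22) = true := by decide +kernel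
  refine List.nodup_append.mpr ⟨nodup_of_incr h1, nodup_A, fun a ha b hb hab => ?_⟩
  obtain ⟨x, -, rfl⟩ := List.mem_map.mp ha
  have hb' : b < 2 ^ 22 := of_decide_eq_true (List.all_eq_true.mp bound_A b hb)
  rw [← hab] at hb'
  omega

theorem length_list23 : list23.length = 253 := by decide +kernel

theorem bound_24 : Data.cls24.all (fun m => decide (m < 2 ^ 23)) = true := by decide +kernel

theorem nodup_24 : Data.cls24.Nodup := nodup_of_incr (by decide +kernel)

theorem length_24 : Data.cls24.length = 506 := by decide +kernel

theorem one_list23 : mapsInto (1 : Equiv.Perm (Fin 23)) list23 list23 = true :=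
  mapsInto_one fun m hm => of_decide_eq_true (List.all_eq_true.mp bound_list23 m hm)

theorem one_24 : mapsInto (1 : Equiv.Perm (Fin 23)) Data.cls24 Data.cls24 = true :=
  mapsInto_one fun m hm => of_decide_eq_true (List.all_eq_true.mp bound_24 m hm)

theorem valid24 : rowsValid list23 Data.rows24 = true := by decide +kernel

theorem parCands24_eq : listEq (parCands 23 8 0 Data.rows24) Data.cls24 = true := by
  decide +kernel

theorem parCands24_sub :
    (parCands 23 8 0 Data.rows24).all (fun m => memb m Data.cls24) = true := by
  rw [eq_of_listEq parCands24_eq, List.all_eq_true]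
  exact fun m hm => memb_iff.mpr hm

end Cfsg.Agent.Design
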