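import Cfsg.Agent.Design.Large
import Cfsg.Agent.Sharply.SimpleCrit
import Cfsg.Prelude.Def_Sporadic

/-!
Automorphism groups of S(3,6,22), S(4,7,23) and S(5,8,24): order, transitivity and simplicity.
-/

set_option autoImplicit false

namespace Cfsg.Agent.Design

open MulAction
open Cfsg.Agent.Sharply

variable {α : Type*} [Fintype α] [DecidableEq α] {B : Set (Finset α)}

theorem card_aut22 (hB : Cfsg.IsSteinerSystem 3 6 B) (hv : Fintype.card α = 22) :
    Nat.card (Cfsg.setSystemAut B) = 887040 := by
  obtain ⟨e, he⟩ := exists_iso22 hB hv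
  rw [Nat.card_congr (autEquiv he), card_isIso22 hB hv]

theorem card_aut23 (hB : Cfsg.IsSteinerSystem 4 7 B) (hv : Fintype.card α = 23) :
    Nat.card (Cfsg.setSystemAut B) = 10200960 := by
  obtain ⟨e, he⟩ := exists_iso23 hB hv
  rw [Nat.card_congr (autEquiv he), card_isIso23 hB hv]

theorem card_aut24 (hB : Cfsg.IsSteinerSystem 5 8 B) (hv : Fintype.card α = 24) :
    Nat.card (Cfsg.setSystemAut B) = 244823040 := by
  obtain ⟨e, he⟩ := exists_iso24 hB hv
  rw [Nat.card_congr (autEquiv he), card_isIso24 hB hv]

theorem three_trans22 (hB : Cfsg.IsSteinerSystem 3 6 B) (hv : Fintype.card α = 22) :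
    IsMultiplyPretransitive (Cfsg.setSystemAut B) α 3 :=
  multiplyPretransitive_of tuple22 (realise22 hB hv)

theorem four_trans23 (hB : Cfsg.IsSteinerSystem 4 7 B) (hv : Fintype.card α = 23) :
    IsMultiplyPretransitive (Cfsg.setSystemAut B) α 4 :=
  multiplyPretransitive_of tuple23 (realise23 hB hv)

theorem five_trans24 (hB : Cfsg.IsSteinerSystem 5 8 B) (hv : Fintype.card α = 24) :
    IsMultiplyPretransitive (Cfsg.setSystemAut B) α 5 :=
  multiplyPretransitive_of tuple24 (realise24 hB hv)

/-- A Sylow subgroup of prime order. -/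
theorem sylow_card_prime {G : Type*} [Group G] [Finite G] {p m : ℕ} [hp : Fact p.Prime]
    (hG : Nat.card G = p * m) (hm : ¬ p ∣ m) (P : Sylow p G) : Nat.card (P : Subgroup G) = p := by
  have hm0 : m ≠ 0 := fun h => hm (h ▸ dvd_zero p)
  rw [P.card_eq_multiplicity, hG, Nat.factorization_mul hp.out.ne_zero hm0, Finsupp.add_apply,
    hp.out.factorization_self, Nat.factorization_eq_zero_of_not_dvd hm, add_zero, pow_one]

theorem simple_aut23 (hB : Cfsg.IsSteinerSystem 4 7 B) (hv : Fintype.card α = 23) :
    IsSimpleGroup (Cfsg.setSystemAut B) := by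
  have hc := card_aut23 hB hv
  have h4 := four_trans23 hB hv
  have hprim : IsPreprimitive (Cfsg.setSystemAut B) α :=
    isPreprimitive_of_is_two_pretransitive
      (isMultiplyPretransitive_of_le (n := 4) (by omega) (by rw [Nat.card_eq_fintype_card]; omega))
  have hne : Nonempty α := Fintype.card_pos_iff.mp (by omega)
  refine isSimpleGroup_of_normalizer_card (p := 23) (q := 11) (by norm_num) (by norm_num)
    (by rw [hc]; norm_num) (by rw [hc]; norm_num) ?_ ?_
  · intro N hN hNb
    have := normal_pretransitive (α := α) hN hNb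
    have h := natCard_dvd_of_pretransitive (G := N) (α := α)
    rwa [Nat.card_eq_fintype_card, hv] at h
  · intro P
    have : Fact (Nat.Prime 23) := ⟨by norm_num⟩
    have hP := sylow_card_prime (m := 443520) (by rw [hc]) (by norm_num) P
    have h1 := card_normalizer_dvd_of_prime_degree (α := α) (by norm_num : Nat.Prime 23)
      (by rw [Nat.card_eq_fintype_card, hv]) (P : Subgroup (Cfsg.setSystemAut B)) hP
    have h2 : 23 ∣ Nat.card (Subgroup.normalizer
        ((P : Subgroup (Cfsg.setSystemAut B)) : Set (Cfsg.setSystemAut B))) :=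
      hP.symm.dvd.trans (Subgroup.card_dvd_of_le Subgroup.le_normalizer)
    have h3 : Nat.card (Sylow 23 (Cfsg.setSystemAut B)) * Nat.card (Subgroup.normalizer
        ((P : Subgroup (Cfsg.setSystemAut B)) : Set (Cfsg.setSystemAut B))) =
        Nat.card (Cfsg.setSystemAut B) := by
      rw [P.card_eq_index_normalizer]
      exact Subgroup.index_mul_card _
    rw [hc] at h3
    have h4 := card_sylow_modEq_one 23 (Cfsg.setSystemAut B)
    unfold Nat.ModEq at h4
    obtain ⟨d, hd⟩ := h2
    rw [hd] at h1 h3 ⊢
    have h5 : d ∣ 22 := Nat.dvd_of_mul_dvd_mul_left (by norm_num : 0 < 23) h1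
    have h6 : d ≤ 22 := Nat.le_of_dvd (by norm_num) h5
    interval_cases d <;> omega

theorem mem_derived_iff {q : α} {r : Finset {x : α // x ≠ q}} {g : Equiv.Perm α}
    (hg : g ∈ Cfsg.setSystemAut B) (hgq : g q = q) (hg' : ∀ x, g x ≠ q ↔ x ≠ q) :
    r.map (g.subtypePerm hg').toEmbedding ∈ derived B q ↔ r ∈ derived B q := by
  rw [mem_derived, mem_derived,
    ← mem_aut.mp hg (Finset.cons q (r.map (Function.Embedding.subtype _)) (by simp))]
  rw [Finset.cons_eq_insert, Finset.cons_eq_insert, Finset.map_insert, Finset.map_map, Finset.map_map]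
  simp only [Equiv.coe_toEmbedding, hgq]
  rfl

theorem simple_aut24 (hB : Cfsg.IsSteinerSystem 5 8 B) (hv : Fintype.card α = 24) :
    IsSimpleGroup (Cfsg.setSystemAut B) := by
  have hc := card_aut24 hB hv
  have h5 := five_trans24 hB hv
  obtain ⟨q⟩ : Nonempty α := Fintype.card_pos_iff.mp (by omega)
  have hfix : ∀ g : stabilizer (Cfsg.setSystemAut B) q, (g.1.1 : Equiv.Perm α) q = q := fun g => g.2
  have hg' : ∀ g : stabilizer (Cfsg.setSystemAut B) q, ∀ x, g.1.1 x ≠ q ↔ x ≠ q := by
    intro g x
    rw [not_iff_not]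
    constructor
    · intro h; exact g.1.1.injective (h.trans (hfix g).symm)
    · rintro rfl; exact hfix g
  let φ : stabilizer (Cfsg.setSystemAut B) q →* Cfsg.setSystemAut (derived B q) :=
    { toFun := fun g => ⟨g.1.1.subtypePerm (hg' g),
        mem_aut.mpr fun r => mem_derived_iff g.1.2 (hfix g) (hg' g)⟩
      map_one' := Subtype.ext (Equiv.ext fun x => Subtype.ext rfl)
      map_mul' := fun g k => Subtype.ext (Equiv.ext fun x => Subtype.ext rfl) }
  have hinj : Function.Injective φ := by
    intro g k h
    apply Subtype.ext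
    apply Subtype.ext
    apply Equiv.ext
    intro x
    by_cases hx : x = q
    · rw [hx, hfix g, hfix k]
    · exact congrArg (fun t : Cfsg.setSystemAut (derived B q) => ((t.1 ⟨x, hx⟩).1 : α)) h
  have htr : IsPretransitive (Cfsg.setSystemAut B) α :=
    is_one_pretransitive_iff.mp
      (isMultiplyPretransitive_of_le (n := 5) (by omega) (by rw [Nat.card_eq_fintype_card]; omega))
  have hstab : Nat.card (stabilizer (Cfsg.setSystemAut B) q) = 10200960 := by
    have h := Subgroup.card_mul_index (stabilizer (Cfsg.setSystemAut B) q)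
    rw [index_stabilizer_of_transitive _ q, Nat.card_eq_fintype_card (α := α), hv, hc] at h
    omega
  have hbij : Function.Bijective φ := by
    rw [Nat.bijective_iff_injective_and_card]
    exact ⟨hinj, by rw [hstab, card_aut23 (derived_isSteiner hB q) (card_ne hv q)]⟩
  have hs := simple_aut23 (derived_isSteiner hB q) (card_ne hv q)
  exact isSimpleGroup_of_simple_stabilizer
    (isMultiplyPretransitive_of_le (n := 5) (by omega) (by rw [Nat.card_eq_fintype_card]; omega)) q
    ((MulEquiv.ofBijective φ hbij).isSimpleGroup_congr.mpr hs) (p := 2) (r := 3)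
    Nat.prime_two Nat.prime_three (by norm_num)
    (by rw [Nat.card_eq_fintype_card, hv]; norm_num) (by rw [Nat.card_eq_fintype_card, hv]; norm_num)

/-- There is an odd automorphism of an S(3,6,22). -/
theorem exists_odd22 (hB : Cfsg.IsSteinerSystem 3 6 B) (hv : Fintype.card α = 22) :
    ∃ g ∈ Cfsg.setSystemAut B, Equiv.Perm.sign g = -1 := by
  obtain ⟨e, he⟩ := exists_iso22 hB hv
  have h := he.relabel swap23_list22
    (fun m hm => of_decide_eq_true (List.all_eq_true.mp bound_list22 m hm)) nodup_list22
  refine ⟨_, aut_of_isIso he h, ?_⟩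
  rw [← Equiv.trans_assoc, Equiv.Perm.sign_symm_trans_trans, swap23, sign_swaps _ (by decide +kernel)]
  rfl

/-- The even automorphisms. -/
def evenAut (B : Set (Finset α)) : Subgroup (Cfsg.setSystemAut B) :=
  (Equiv.Perm.sign.comp (Cfsg.setSystemAut B).subtype).ker

omit [Fintype α] in
theorem index_ker_sign {G : Type*} [Group G] (χ : G →* ℤˣ) (h : ∃ g, χ g = -1) :
    χ.ker.index = 2 := by
  have hsurj : Function.Surjective χ := by
    intro u
    rcases Int.units_eq_one_or u with rfl | rfl
    · exact ⟨1, map_one χ⟩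
    · exact h
  rw [Subgroup.index_ker, MonoidHom.range_eq_top.mpr hsurj, Subgroup.card_top,
    Nat.card_eq_fintype_card, Fintype.card_units_int]

theorem index_evenAut (hB : Cfsg.IsSteinerSystem 3 6 B) (hv : Fintype.card α = 22) :
    (evenAut B).index = 2 := by
  obtain ⟨g, hg, hs⟩ := exists_odd22 hB hv
  exact index_ker_sign _ ⟨⟨g, hg⟩, hs⟩

theorem card_evenAut (hB : Cfsg.IsSteinerSystem 3 6 B) (hv : Fintype.card α = 22) :
    Nat.card (evenAut B) = 443520 := by
  have h := Subgroup.card_mul_index (evenAut B)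
  rw [index_evenAut hB hv, card_aut22 hB hv] at h
  omega

theorem pretransitive_evenAut (hB : Cfsg.IsSteinerSystem 3 6 B) (hv : Fintype.card α = 22) :
    IsPretransitive (evenAut B) α := by
  have h3 := three_trans22 hB hv
  have hprim : IsPreprimitive (Cfsg.setSystemAut B) α :=
    isPreprimitive_of_is_two_pretransitive
      (isMultiplyPretransitive_of_le (n := 3) (by omega) (by rw [Nat.card_eq_fintype_card]; omega))
  refine normal_pretransitive (MonoidHom.normal_ker _) fun hb => ?_
  have h := card_evenAut hB hv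
  have h1 : Nat.card (evenAut B) = 1 := by rw [hb]; exact Subgroup.card_bot
  omega

theorem two_trans_evenAut (hB : Cfsg.IsSteinerSystem 3 6 B) (hv : Fintype.card α = 22) :
    IsMultiplyPretransitive (evenAut B) α 2 := by
  classical
  have h3 := three_trans22 hB hv
  have htr := pretransitive_evenAut hB hv
  obtain ⟨a⟩ : Nonempty α := Fintype.card_pos_iff.mp (by omega)
  have htrG : IsPretransitive (Cfsg.setSystemAut B) α :=
    is_one_pretransitive_iff.mp
      (isMultiplyPretransitive_of_le (n := 3) (by omega) (by rw [Nat.card_eq_fintype_card]; omega))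
  have h2 : IsMultiplyPretransitive (stabilizer (Cfsg.setSystemAut B) a)
      (SubMulAction.ofStabilizer (Cfsg.setSystemAut B) a) 2 :=
    SubMulAction.ofStabilizer.isMultiplyPretransitive.mp h3
  have hprim := isPreprimitive_of_is_two_pretransitive h2
  let N : Subgroup (stabilizer (Cfsg.setSystemAut B) a) :=
    (evenAut B).subgroupOf (stabilizer (Cfsg.setSystemAut B) a)
  have hfaith : FaithfulSMul (stabilizer (Cfsg.setSystemAut B) a)
      (SubMulAction.ofStabilizer (Cfsg.setSystemAut B) a) := by
    refine ⟨fun {g k} e => Subtype.ext (Subtype.ext (Equiv.ext fun x => ?_))⟩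
    by_cases hx : x = a
    · rw [hx]; exact g.2.trans k.2.symm
    · exact congrArg Subtype.val (e ⟨x, hx⟩)
  have hNn : N.Normal := ⟨fun n hn g => (MonoidHom.normal_ker _).conj_mem _ hn g.1⟩
  have hNb : N ≠ ⊥ := by
    intro hb
    have hb' : Disjoint (evenAut B) (stabilizer (Cfsg.setSystemAut B) a) :=
      Subgroup.subgroupOf_eq_bot.mp hb
    have hs : Nat.card (stabilizer (Cfsg.setSystemAut B) a) = 40320 := by
      have h := Subgroup.card_mul_index (stabilizer (Cfsg.setSystemAut B) a)
      rw [index_stabilizer_of_transitive _ a, Nat.card_eq_fintype_card (α := α), hv,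
        card_aut22 hB hv] at h
      omega
    have hinj : Function.Injective (fun g : stabilizer (Cfsg.setSystemAut B) a =>
        Equiv.Perm.sign (g.1.1 : Equiv.Perm α)) := by
      intro g k e
      have hm : g.1⁻¹ * k.1 ∈ evenAut B ⊓ stabilizer (Cfsg.setSystemAut B) a := by
        refine ⟨?_, Subgroup.mul_mem _ (Subgroup.inv_mem _ g.2) k.2⟩
        show Equiv.Perm.sign (g.1.1⁻¹ * k.1.1) = 1
        have e' : Equiv.Perm.sign (g.1.1 : Equiv.Perm α) = Equiv.Perm.sign (k.1.1 : Equiv.Perm α) := e
        rw [map_mul, map_inv, e', inv_mul_cancel]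
      rw [hb'.eq_bot, Subgroup.mem_bot, inv_mul_eq_one] at hm
      exact Subtype.ext hm
    have h := Nat.card_le_card_of_injective _ hinj
    rw [hs, Nat.card_eq_fintype_card, Fintype.card_units_int] at h
    omega
  have hNt := normal_pretransitive (α := SubMulAction.ofStabilizer (Cfsg.setSystemAut B) a) hNn hNb
  rw [is_two_pretransitive_iff]
  intro x y x' y' hxy hxy'
  obtain ⟨h₁, hh₁⟩ := exists_smul_eq (evenAut B) x a
  obtain ⟨h₂, hh₂⟩ := exists_smul_eq (evenAut B) x' a
  obtain ⟨n, hn⟩ := exists_smul_eq N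
    (⟨h₁ • y, fun e => hxy (smul_left_cancel h₁ (hh₁.trans e.symm))⟩ :
      SubMulAction.ofStabilizer (Cfsg.setSystemAut B) a)
    ⟨h₂ • y', fun e => hxy' (smul_left_cancel h₂ (hh₂.trans e.symm))⟩
  have hn' : (⟨n.1.1, n.2⟩ : evenAut B) • h₁ • y = h₂ • y' :=
    congrArg (fun t : SubMulAction.ofStabilizer (Cfsg.setSystemAut B) a => t.1) hn
  refine ⟨h₂⁻¹ * ⟨n.1.1, n.2⟩ * h₁, ?_, ?_⟩
  · rw [mul_smul, mul_smul, hh₁, inv_smul_eq_iff, hh₂]
    exact n.1.2
  · rw [mul_smul, mul_smul, hn', inv_smul_smul]

/-- A nontrivial element of 11-power order of the automorphism group fixes at most two points. -/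
theorem card_fix_le22 (hB : Cfsg.IsSteinerSystem 3 6 B) (hv : Fintype.card α = 22)
    {g : Cfsg.setSystemAut B} (hg : orderOf g = 11) {a b c : α} (hab : a ≠ b) (hac : a ≠ c)
    (hbc : b ≠ c) (ha : g • a = a) (hb : g • b = b) (hc : g • c = c) : False := by
  classical
  have h3 := three_trans22 hB hv
  let x : Fin 3 ↪ α := ⟨![a, b, c], by
    intro i j hij
    fin_cases i <;> fin_cases j <;> first
      | rfl
      | exact absurd hij (by first
          | exact hab | exact hac | exact hbc | exact hab.symm | exact hac.symm | exact hbc.symm)⟩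
  have hpt : IsPretransitive (Cfsg.setSystemAut B) (Fin 3 ↪ α) := h3
  have h := Subgroup.card_mul_index (stabilizer (Cfsg.setSystemAut B) x)
  have horb : orbit (Cfsg.setSystemAut B) x = Set.univ :=
    Set.eq_univ_of_forall fun y => hpt.exists_smul_eq x y
  rw [index_stabilizer] at h
  erw [horb] at h
  rw [Set.ncard_univ, Nat.card_eq_fintype_card (α := Fin 3 ↪ α),
    Fintype.card_embedding_eq, Fintype.card_fin, hv, card_aut22 hB hv] at h
  have hgx : g ∈ stabilizer (Cfsg.setSystemAut B) x := by
    rw [mem_stabilizer_iff]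
    ext i
    fin_cases i <;> assumption
  have h11 : 11 ∣ Nat.card (stabilizer (Cfsg.setSystemAut B) x) := by
    rw [← hg]
    exact Subgroup.orderOf_dvd_natCard _ hgx
  have hd : Nat.descFactorial 22 3 = 9240 := by rfl
  rw [hd] at h
  have : Nat.card (stabilizer (Cfsg.setSystemAut B) x) = 96 := by omega
  rw [this] at h11
  norm_num at h11

theorem simple_evenAut (hB : Cfsg.IsSteinerSystem 3 6 B) (hv : Fintype.card α = 22) :
    IsSimpleGroup (evenAut B) := by
  classical
  have hc := card_evenAut hB hv
  have h2 := two_trans_evenAut hB hv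
  have hprim : IsPreprimitive (evenAut B) α := isPreprimitive_of_is_two_pretransitive h2
  have hne : Nonempty α := Fintype.card_pos_iff.mp (by omega)
  refine isSimpleGroup_of_normalizer_card (p := 11) (q := 5) (by norm_num) (by norm_num)
    (by rw [hc]; norm_num) (by rw [hc]; norm_num) ?_ ?_
  · intro N hN hNb
    have := normal_pretransitive (α := α) hN hNb
    have h := natCard_dvd_of_pretransitive (G := N) (α := α)
    rw [Nat.card_eq_fintype_card, hv] at h
    exact (Dvd.intro 2 rfl : 11 ∣ 22).trans h
  · intro P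
    have : Fact (Nat.Prime 11) := ⟨by norm_num⟩
    have hP := sylow_card_prime (m := 40320) (by rw [hc]) (by norm_num) P
    obtain ⟨g, hgP, hg11⟩ : ∃ g ∈ (P : Subgroup (evenAut B)), orderOf g = 11 := by
      obtain ⟨g, hg⟩ := exists_prime_orderOf_dvd_card' (G := (P : Subgroup (evenAut B))) 11
        (by rw [hP])
      exact ⟨g.1, g.2, (Subgroup.orderOf_coe g).trans hg⟩
    have hg11' : orderOf (g : Cfsg.setSystemAut B) = 11 := by rw [Subgroup.orderOf_coe, hg11]
    let σ : Equiv.Perm α := g.1.1
    have hσ11 : orderOf σ = 11 := by rw [Subgroup.orderOf_coe, hg11']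
    -- no fixed point
    have hfree : ∀ a, σ a ≠ a := by
      intro a ha
      have hmod := Equiv.Perm.card_compl_support_modEq (p := 11) (n := 1) (σ := σ)
        (by rw [pow_one, ← hσ11]; exact pow_orderOf_eq_one σ)
      rw [hv] at hmod
      unfold Nat.ModEq at hmod
      have hpos : 0 < σ.supportᶜ.card := Finset.card_pos.mpr ⟨a, by simp [ha]⟩
      obtain ⟨s, hs, hs3⟩ := Finset.exists_subset_card_eq (s := σ.supportᶜ) (n := 3) (by omega)
      obtain ⟨x, y, z, hxy, hxz, hyz, rfl⟩ := Finset.card_eq_three.mp hs3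
      simp only [Finset.insert_subset_iff, Finset.singleton_subset_iff, Finset.mem_compl,
        Equiv.Perm.mem_support, not_not] at hs
      exact card_fix_le22 hB hv hg11' hxy hxz hyz hs.1 hs.2.1 hs.2.2
    -- the centraliser acts freely
    let C : Subgroup (evenAut B) := Subgroup.centralizer ((P : Subgroup (evenAut B)) : Set (evenAut B))
    have hinjAll : ∀ a, Set.InjOn (fun k : ℕ => (σ ^ k) a) (Finset.range 11 : Finset ℕ) := by
      intro a i hi j hj hij
      simp only [Finset.coe_range, Set.mem_Iio] at hi hj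
      have key : ∀ i d : ℕ, d < 11 → 0 < d → (σ ^ i) a ≠ (σ ^ (i + d)) a := by
        intro i d hd11 hdpos hij'
        rw [pow_add, Equiv.Perm.mul_apply] at hij'
        have hd : (σ ^ d) a = a := ((σ ^ i).injective hij').symm
        have hcop : Nat.Coprime d (orderOf σ) := by
          rw [hσ11, Nat.coprime_comm, Nat.Prime.coprime_iff_not_dvd (by norm_num)]
          intro h; have := Nat.le_of_dvd hdpos h; omega
        obtain ⟨m, hm⟩ := exists_pow_eq_self_of_coprime (x := σ) hcop
        apply hfree a
        rw [← hm]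
        clear hm
        induction m with
        | zero => simp
        | succ m ih => rw [pow_succ, Equiv.Perm.mul_apply, hd]; exact ih
      rcases lt_trichotomy i j with h | h | h
      · obtain ⟨d, rfl⟩ := Nat.exists_eq_add_of_le h.le
        exact absurd hij (key i d (by omega) (by omega))
      · exact h
      · obtain ⟨d, rfl⟩ := Nat.exists_eq_add_of_le h.le
        exact absurd hij.symm (key j d (by omega) (by omega))
    have hfreeC : ∀ c ∈ C, ∀ a, (c.1.1 : Equiv.Perm α) a = a → c = 1 := by
      intro c hc a ha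
      have hcg : g * c = c * g := Subgroup.mem_centralizer_iff.mp hc g hgP
      have hcomm : Commute (c.1.1 : Equiv.Perm α) σ :=
        (congrArg (fun t : evenAut B => (t.1.1 : Equiv.Perm α)) hcg).symm
      have hcσ : ∀ (k : ℕ) (x : α),
          (c.1.1 : Equiv.Perm α) ((σ ^ k) x) = (σ ^ k) ((c.1.1 : Equiv.Perm α) x) := fun k x =>
        DFunLike.congr_fun (hcomm.pow_right k).eq x
      by_contra hc1
      let O : α → Finset α := fun x => (Finset.range 11).image fun k => (σ ^ k) x
      have hOcard : ∀ x, (O x).card = 11 := fun x => by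
        rw [Finset.card_image_of_injOn (hinjAll x), Finset.card_range]
      have hOfix : ∀ y ∈ O a, (c.1.1 : Equiv.Perm α) y = y := by
        intro y hy
        obtain ⟨k, -, rfl⟩ := Finset.mem_image.mp hy
        rw [hcσ, ha]
      have hpow : ((c.1.1 : Equiv.Perm α) ^ 11) = 1 := by
        apply Equiv.ext
        intro x
        rw [Equiv.Perm.one_apply]
        by_cases hx : (c.1.1 : Equiv.Perm α) x = x
        · exact Equiv.Perm.pow_apply_eq_self_of_apply_eq_self hx 11
        have hdisj : Disjoint (O a) (O x) := by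
          rw [Finset.disjoint_left]
          intro y hy hy'
          obtain ⟨k, -, rfl⟩ := Finset.mem_image.mp hy'
          have := hOfix _ hy
          rw [hcσ] at this
          exact hx ((σ ^ k).injective this)
        have huniv : O a ∪ O x = Finset.univ := by
          apply Finset.eq_univ_of_card
          rw [Finset.card_union_of_disjoint hdisj, hOcard, hOcard, hv]
        have hcx : (c.1.1 : Equiv.Perm α) x ∈ O a ∪ O x := huniv ▸ Finset.mem_univ _
        rcases Finset.mem_union.mp hcx with h | h
        · exact absurd ((c.1.1 : Equiv.Perm α).injective (hOfix _ h)) hx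
        obtain ⟨k, -, hk⟩ := Finset.mem_image.mp h
        have hm : ∀ m : ℕ, ((c.1.1 : Equiv.Perm α) ^ m) x = (σ ^ (k * m)) x := by
          intro m
          induction m with
          | zero => simp
          | succ m ih =>
            rw [pow_succ', Equiv.Perm.mul_apply, ih, hcσ, ← hk, Nat.mul_succ, pow_add,
              Equiv.Perm.mul_apply]
        rw [hm, mul_comm, pow_mul, show σ ^ 11 = 1 by rw [← hσ11]; exact pow_orderOf_eq_one σ,
          one_pow, Equiv.Perm.one_apply]
      have hc11 : orderOf (c : Cfsg.setSystemAut B) = 11 := by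
        rw [← Subgroup.orderOf_coe]
        exact orderOf_eq_prime hpow (fun h => hc1 (Subtype.ext (Subtype.ext h)))
      obtain ⟨s, hs, hs3⟩ := Finset.exists_subset_card_eq (s := O a) (n := 3) (by rw [hOcard]; norm_num)
      obtain ⟨x, y, z, hxy, hxz, hyz, rfl⟩ := Finset.card_eq_three.mp hs3
      simp only [Finset.insert_subset_iff, Finset.singleton_subset_iff] at hs
      exact card_fix_le22 hB hv hc11 hxy hxz hyz (hOfix _ hs.1) (hOfix _ hs.2.1) (hOfix _ hs.2.2)
    -- the centraliser has order 11
    obtain ⟨a₀⟩ := hne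
    have hCle : Nat.card C ≤ 22 := by
      rw [← hv, ← Nat.card_eq_fintype_card]
      refine Nat.card_le_card_of_injective (fun c : C => (c.1.1.1 : Equiv.Perm α) a₀) ?_
      intro c d e
      have h1 := hfreeC (d.1⁻¹ * c.1) (C.mul_mem (C.inv_mem d.2) c.2) a₀ (by
        show ((d.1.1.1)⁻¹ * c.1.1.1 : Equiv.Perm α) a₀ = a₀
        rw [Equiv.Perm.mul_apply, Equiv.Perm.inv_eq_iff_eq]
        exact e)
      exact Subtype.ext (inv_mul_eq_one.mp h1).symm
    have hPC : (P : Subgroup (evenAut B)) ≤ C := by
      intro x hx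
      rw [Subgroup.mem_centralizer_iff]
      intro y hy
      have hcyc : IsCyclic (P : Subgroup (evenAut B)) := isCyclic_of_prime_card hP
      exact congrArg Subtype.val ((IsCyclic.isMulCommutative (α := (P : Subgroup (evenAut B)))).is_comm.comm
        ⟨y, hy⟩ ⟨x, hx⟩)
    have hC11 : Nat.card C = 11 := by
      have h1 : 11 ∣ Nat.card C := hP.symm.dvd.trans (Subgroup.card_dvd_of_le hPC)
      have h0 : 0 < Nat.card C := Nat.card_pos
      have hne22 : Nat.card C ≠ 22 := by
        intro h22
        obtain ⟨t, ht⟩ := exists_prime_orderOf_dvd_card' (G := C) 2 (by rw [h22]; norm_num)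
        have ht' : orderOf (t.1.1.1 : Equiv.Perm α) = 2 := by
          rw [Subgroup.orderOf_coe, Subgroup.orderOf_coe, Subgroup.orderOf_coe, ht]
        have hfull : (t.1.1.1 : Equiv.Perm α).support = Finset.univ := by
          rw [Finset.eq_univ_iff_forall]
          intro x
          rw [Equiv.Perm.mem_support]
          intro hx
          have : t = 1 := Subtype.ext (hfreeC t.1 t.2 x hx)
          rw [this, orderOf_one] at ht
          omega
        have h2c := Equiv.Perm.sign_of_cycleType (t.1.1.1 : Equiv.Perm α)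
        obtain ⟨k, hk⟩ := Equiv.Perm.cycleType_prime_order (by rw [ht']; norm_num : (orderOf (t.1.1.1 : Equiv.Perm α)).Prime)
        have hsum := Equiv.Perm.sum_cycleType (t.1.1.1 : Equiv.Perm α)
        rw [hk, ht', Multiset.sum_replicate, hfull, Finset.card_univ, hv, smul_eq_mul] at hsum
        have hk11 : k + 1 = 11 := by omega
        rw [hk, ht', hk11] at h2c
        have heven : Equiv.Perm.sign (t.1.1.1 : Equiv.Perm α) = 1 := t.1.2
        rw [heven] at h2c
        exact absurd h2c (by decide)
      omega
    let R := Subgroup.normalizer ((P : Subgroup (evenAut B)) : Set (evenAut B))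
    let ψ := Subgroup.normalizerMonoidHom (P : Subgroup (evenAut B))
    have hker : Nat.card ψ.ker = 11 := by
      refine Eq.trans ?_ hC11
      refine Nat.card_congr ⟨fun c => ⟨c.1.1, ?_⟩, fun c => ⟨⟨c.1, ?_⟩, ?_⟩, fun _ => rfl, fun _ => rfl⟩
      · rw [Subgroup.mem_centralizer_iff]
        intro u hu
        have h1 := DFunLike.congr_fun (MonoidHom.mem_ker.mp c.2) ⟨u, hu⟩
        have h2 : (c.1 : evenAut B) * u * (c.1 : evenAut B)⁻¹ = u := congrArg Subtype.val h1
        exact (mul_inv_eq_iff_eq_mul.mp h2).symm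
      · exact Subgroup.centralizer_le_normalizer _ c.2
      · rw [MonoidHom.mem_ker]
        apply MulEquiv.ext
        intro v
        apply Subtype.ext
        show c.1 * v.1 * c.1⁻¹ = v.1
        rw [← Subgroup.mem_centralizer_iff.mp c.2 v.1 v.2, mul_inv_cancel_right]
    have haut : Nat.card (MulAut (P : Subgroup (evenAut B))) = 10 := by
      have hcyc : IsCyclic (P : Subgroup (evenAut B)) := isCyclic_of_prime_card hP
      rw [IsCyclic.card_mulAut, hP, Nat.totient_prime (by norm_num : Nat.Prime 11)]
    have hR : Nat.card R ∣ 11 * 10 := by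
      rw [← Subgroup.index_mul_card ψ.ker, Subgroup.index_ker, hker, mul_comm 11 10]
      exact Nat.mul_dvd_mul_right (haut ▸ Subgroup.card_subgroup_dvd_card _) 11
    have h3 : Nat.card (Sylow 11 (evenAut B)) * Nat.card R = Nat.card (evenAut B) := by
      rw [P.card_eq_index_normalizer]
      exact Subgroup.index_mul_card _
    rw [hc] at h3
    have h4 := card_sylow_modEq_one 11 (evenAut B)
    unfold Nat.ModEq at h4
    have h2' : 11 ∣ Nat.card R := hP.symm.dvd.trans (Subgroup.card_dvd_of_le Subgroup.le_normalizer)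
    obtain ⟨d, hd⟩ := h2'
    rw [hd] at hR h3
    have h5 : d ∣ 10 := Nat.dvd_of_mul_dvd_mul_left (by norm_num : 0 < 11) hR
    have h6 : d ≤ 10 := Nat.le_of_dvd (by norm_num) h5
    show Nat.card R = 11 * 5
    rw [hd]
    interval_cases d <;> omega

end Cfsg.Agent.Design
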