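import Cfsg.Agent.Design.Base22
import Cfsg.Agent.Design.Check24

/-!
The Steiner systems S(4,7,23) and S(5,8,24): uniqueness, the number of labellings and the
realisation of tuples.
-/

set_option autoImplicit false

namespace Cfsg.Agent.Design

open Cfsg.Agent.SteinerCount

/-- The single class of octads. -/
def classes24 : Classes 23 list23 where
  num := 1
  cls := fun _ => Data.cls24
  zero := 0
  shift := fun _ => 1
  bound := fun m hm => of_decide_eq_true (List.all_eq_true.mp bound_list23 m hm)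
  bound' := fun m hm => of_decide_eq_true (List.all_eq_true.mp bound_24 m hm)
  nodupL := nodup_list23
  nodup := nodup_24
  shiftL := fun _ => one_list23
  shiftC := fun _ => one_24
  length_eq := fun _ => rfl
  distinct := fun j k hjk => absurd (Subsingleton.elim j k) hjk

/-- The standard S(5,8,24). -/
def list24 : List ℕ := classes24.next

variable {α : Type*} [DecidableEq α] {B : Set (Finset α)}

theorem rest_card {t k n : ℕ} (hB : Cfsg.IsSteinerSystem t k B) {q : α}
    {e : Fin n ≃ {x : α // x ≠ q}} {r : Finset (Fin n)} (hr : r ∈ rest B e) : r.card = k := by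
  rw [← hB.1 _ hr, Finset.card_map]

theorem notMem_map {n : ℕ} {q : α} (e : Fin n ≃ {x : α // x ≠ q}) (r : Finset (Fin n)) :
    q ∉ r.map (e.toEmbedding.trans (Function.Embedding.subtype _)) := by
  intro h
  obtain ⟨i, -, hi⟩ := Finset.mem_map.mp h
  exact (e i).2 hi

/-- Intersections with derived blocks, computed in labels. -/
theorem rest_inter_known {n : ℕ} {L : List ℕ} {q : α} {e : Fin n ≃ {x : α // x ≠ q}}
    (he : IsIso L (derived B q) e) (hb : ∀ m ∈ L, m < 2 ^ n) {r : Finset (Fin n)}
    (hr : r ∈ rest B e) {m : ℕ} (hm : m ∈ L) :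
    ∃ b ∈ B, ∃ c ∈ B, b ≠ c ∧ (r ∩ bits n m).card = (b ∩ c).card := by
  have hc : (bits n m).map e.toEmbedding ∈ derived B q := (he _).mpr (by rwa [mask_bits (hb m hm)])
  rw [mem_derived] at hc
  refine ⟨_, hr, _, hc, ?_, ?_⟩
  · intro h
    exact notMem_map e r (by rw [h]; exact Finset.mem_cons_self _ _)
  · rw [Finset.cons_eq_insert, Finset.map_map, Finset.inter_insert_of_notMem (notMem_map e r),
      ← Finset.map_inter, Finset.card_map]

theorem rest_inter_rest {n : ℕ} {q : α} {e : Fin n ≃ {x : α // x ≠ q}} {r r' : Finset (Fin n)}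
    (hr : r ∈ rest B e) (hr' : r' ∈ rest B e) :
    ∃ b ∈ B, ∃ c ∈ B, (r ∩ r').card = (b ∩ c).card :=
  ⟨_, hr, _, hr', by rw [← Finset.map_inter, Finset.card_map]⟩

variable [Fintype α]

theorem card_ne {k : ℕ} (hv : Fintype.card α = k + 1) (q : α) : Fintype.card {x : α // x ≠ q} = k := by
  rw [Fintype.card_subtype_compl, Fintype.card_subtype_eq, hv]
  rfl

theorem hcls23 (hB : Cfsg.IsSteinerSystem 4 7 B) (hv : Fintype.card α = 23) (q : α)
    (e : Fin 22 ≃ {x : α // x ≠ q}) (he : IsIso Data.list22 (derived B q) e) :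
    ∃ j, ∀ r ∈ rest B e, mask r ∈ classes23.cls j := by
  have hmem : ∀ r ∈ rest B e, (memb (mask r) Data.cls23A || memb (mask r) Data.cls23B) = true := by
    intro r hr
    refine List.all_eq_true.mp parCands23_sub _ (mem_parCands (by norm_num) valid23 r
      (rest_card hB hr) fun m hm => ?_)
    obtain ⟨b, hb, c, hc, hne, hcard⟩ := rest_inter_known he classes23.bound hr hm
    rw [hcard]
    rcases inter_4_7_23 hB hv hb hc hne with h | h <;> rw [h]
  by_cases hA : ∀ r ∈ rest B e, memb (mask r) Data.cls23A = true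
  · exact ⟨(0 : Fin 2), fun r hr => memb_iff.mp (hA r hr)⟩
  push Not at hA
  obtain ⟨r₀, hr₀, hr₀A⟩ := hA
  refine ⟨(1 : Fin 2), fun r hr => memb_iff.mp ?_⟩
  have h0 : memb (mask r₀) Data.cls23B = true := by
    have := hmem r₀ hr₀
    simpa [hr₀A] using this
  rcases Bool.or_eq_true_iff.mp (hmem r hr) with h | h
  · exfalso
    have h1 := List.all_eq_true.mp (List.all_eq_true.mp A_B_even _ (memb_iff.mp h)) _
      (memb_iff.mp h0)
    rw [Nat.beq_eq, par_land_mask (by norm_num)] at h1
    obtain ⟨b, hb, c, hc, hcard⟩ := rest_inter_rest hr hr₀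
    rw [hcard] at h1
    by_cases hne : b = c
    · rw [hne, Finset.inter_self, hB.1 c hc] at h1
      omega
    · rcases inter_4_7_23 hB hv hb hc hne with e | e <;> rw [e] at h1 <;> omega
  · exact h

theorem hN23 (hB : Cfsg.IsSteinerSystem 4 7 B) (hv : Fintype.card α = 23) :
    Data.list22.length + (classes23.cls classes23.zero).length ≤ B.ncard := by
  have e : classes23.cls classes23.zero = Data.cls23A := rfl
  rw [e, length_list22, length_A.1, card_blocks (N := 253) hB hv (by decide) (by decide)]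

theorem card_isIso23 (hB : Cfsg.IsSteinerSystem 4 7 B) (hv : Fintype.card α = 23) :
    Nat.card {e : Fin 23 ≃ α // IsIso list23 B e} = 10200960 := by
  have h := card_isIso_next classes23 (hcls23 hB hv) (hN23 hB hv) (N := 887040) fun q =>
    card_isIso22 (derived_isSteiner hB q) (card_ne hv q)
  rw [hv] at h
  change 2 * Nat.card {e : Fin 23 ≃ α // IsIso list23 B e} = _ at h
  omega

/-- The four points used for transitivity. -/
def tuple23 : Fin 4 → Fin 23 :=
  Fin.snoc (α := fun _ => Fin 23) (fun i => (tuple22 i).castSucc) (Fin.last 22)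

theorem swap23_fix : ∀ j : Fin 2, ∀ i : Fin 3,
    (![1, swap23] : Fin 2 → Equiv.Perm (Fin 22)) j (tuple22 i) = tuple22 i := by decide +kernel

theorem realise23 (hB : Cfsg.IsSteinerSystem 4 7 B) (hv : Fintype.card α = 23) (y : Fin 4 ↪ α) :
    ∃ e : Fin 23 ≃ α, IsIso list23 B e ∧ ∀ i, e (tuple23 i) = y i :=
  realise_next classes23 tuple22 swap23_fix (hcls23 hB hv) (hN23 hB hv)
    (fun q y => realise22 (derived_isSteiner hB q) (card_ne hv q) y) y

theorem exists_iso22 (hB : Cfsg.IsSteinerSystem 3 6 B) (hv : Fintype.card α = 22) :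
    ∃ e : Fin 22 ≃ α, IsIso Data.list22 B e := by
  obtain ⟨y⟩ : Nonempty (Fin 3 ↪ α) := Function.Embedding.nonempty_of_card_le (by simp [hv])
  obtain ⟨e, he, -⟩ := realise22 hB hv y
  exact ⟨e, he⟩

theorem exists_iso23 (hB : Cfsg.IsSteinerSystem 4 7 B) (hv : Fintype.card α = 23) :
    ∃ e : Fin 23 ≃ α, IsIso list23 B e := by
  obtain ⟨y⟩ : Nonempty (Fin 4 ↪ α) := Function.Embedding.nonempty_of_card_le (by simp [hv])
  obtain ⟨e, he, -⟩ := realise23 hB hv y
  exact ⟨e, he⟩

theorem hcls24 (hB : Cfsg.IsSteinerSystem 5 8 B) (hv : Fintype.card α = 24) (q : α)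
    (e : Fin 23 ≃ {x : α // x ≠ q}) (he : IsIso list23 (derived B q) e) :
    ∃ j, ∀ r ∈ rest B e, mask r ∈ classes24.cls j := by
  refine ⟨(0 : Fin 1), fun r hr => memb_iff.mp (List.all_eq_true.mp parCands24_sub _
    (mem_parCands (by norm_num) valid24 r (rest_card hB hr) fun m hm => ?_))⟩
  obtain ⟨b, hb, c, hc, hne, hcard⟩ := rest_inter_known he classes24.bound hr hm
  rw [hcard]
  rcases inter_5_8_24 hB hv hb hc hne with h | h | h <;> rw [h]

theorem hN24 (hB : Cfsg.IsSteinerSystem 5 8 B) (hv : Fintype.card α = 24) :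
    list23.length + (classes24.cls classes24.zero).length ≤ B.ncard := by
  have e : classes24.cls classes24.zero = Data.cls24 := rfl
  rw [e, length_list23, length_24, card_blocks (N := 759) hB hv (by decide) (by decide)]

theorem card_isIso24 (hB : Cfsg.IsSteinerSystem 5 8 B) (hv : Fintype.card α = 24) :
    Nat.card {e : Fin 24 ≃ α // IsIso list24 B e} = 244823040 := by
  have h := card_isIso_next classes24 (hcls24 hB hv) (hN24 hB hv) (N := 10200960) fun q =>
    card_isIso23 (derived_isSteiner hB q) (card_ne hv q)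
  rw [hv] at h
  change 1 * Nat.card {e : Fin 24 ≃ α // IsIso list24 B e} = _ at h
  omega

/-- The five points used for transitivity. -/
def tuple24 : Fin 5 → Fin 24 :=
  Fin.snoc (α := fun _ => Fin 24) (fun i => (tuple23 i).castSucc) (Fin.last 23)

theorem realise24 (hB : Cfsg.IsSteinerSystem 5 8 B) (hv : Fintype.card α = 24) (y : Fin 5 ↪ α) :
    ∃ e : Fin 24 ≃ α, IsIso list24 B e ∧ ∀ i, e (tuple24 i) = y i :=
  realise_next classes24 tuple23 (fun _ _ => rfl) (hcls24 hB hv) (hN24 hB hv)
    (fun q y => realise23 (derived_isSteiner hB q) (card_ne hv q) y) y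

theorem exists_iso24 (hB : Cfsg.IsSteinerSystem 5 8 B) (hv : Fintype.card α = 24) :
    ∃ e : Fin 24 ≃ α, IsIso list24 B e := by
  obtain ⟨y⟩ : Nonempty (Fin 5 ↪ α) := Function.Embedding.nonempty_of_card_le (by simp [hv])
  obtain ⟨e, he, -⟩ := realise24 hB hv y
  exact ⟨e, he⟩

end Cfsg.Agent.Design
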